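import Cfsg.Agent.L0.T3.B

/-! The size of the largest `Y`, and the numerical data in the commuting case. -/

set_option autoImplicit false
set_option linter.unusedSectionVars false

namespace Cfsg.Agent.L0.T3

open Cfsg.Agent.H5.TA Subgroup MulAction Finset
open scoped Classical

variable {G Om : Type*} [Group G] [Fintype G] [Fintype Om] [MulAction G Om] {F K : Type} [Field F] [Field K]
  {m i : ℕ} {C : Cfg G Om F K m i}

/-- The parameters of the elements of `Z` fixing `b`. -/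
def AA {N : Subgroup G} (R : R0 N F K m i) (b : Om) : AddSubgroup F where
  carrier := {c | R.ζ c • b = b}
  zero_mem' := by simp [R.ζ_zero]
  add_mem' := fun {x y} hx hy => by
    change R.ζ (x + y) • b = b
    rw [R.ζ_add, mul_smul, hy, hx]
  neg_mem' := fun {x} hx => by rwa [neg_eq_of_add_eq_zero_right (R.addF x)]

theorem mem_AA {N : Subgroup G} {R : R0 N F K m i} {b : Om} {c : F} : c ∈ AA R b ↔ R.ζ c • b = b := Iff.rfl

theorem Hy.mem_Ys (H : Hy C) {a b : Om} (R : R0 (C.N a) F K m i) {t z : G} (e : R.ζ 1 = t) :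
    z ∈ Ys C a b t ↔ ∃ c, c ≠ 0 ∧ c ∈ AA R b ∧ R.ζ c = z := by
  rw [mem_DP]
  constructor
  · rintro ⟨h1, h2, h3, h4⟩
    obtain ⟨c, hc, rfl⟩ := (H.mem_Z R e).1 ⟨h1, h2, h4⟩
    exact ⟨c, hc, h3, rfl⟩
  · rintro ⟨c, hc, h3, rfl⟩
    obtain ⟨h1, h2, h4⟩ := (H.mem_Z R e).2 ⟨c, hc, rfl⟩
    exact ⟨h1, h2, h3, h4⟩

theorem Hy.card_AA (H : Hy C) {a b : Om} (R : R0 (C.N a) F K m i) {t : G} (e : R.ζ 1 = t) :
    Nat.card (AA R b) = (Ys C a b t).card + 1 := by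
  have := R.finF
  have := Fintype.ofFinite F
  have h : Ys C a b t = ((univ.filter (· ∈ AA R b)).erase (0 : F)).image R.ζ := by
    ext z
    simp [H.mem_Ys R e, and_assoc]
  have h0 : (0 : F) ∈ univ.filter (· ∈ AA R b) := by simp
  rw [h, card_image_of_injective _ R.ζ_inj, card_erase_add_one h0, Nat.card_eq_fintype_card, Fintype.card_subtype]

/-- Two involutions fixing two points that do not commute are conjugate in both groups. -/
theorem Hy.conj2 (H : Hy C) {a b : Om} {t u : G} (ht : t ∈ Dab C a b) (hu : u ∈ Dab C a b) (h : ¬ Commute t u) :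
    ∃ g ∈ C.N a, g ∈ C.N b ∧ g * t * g⁻¹ = u := by
  rw [mem_DP] at ht hu
  obtain ⟨k, hk⟩ := dih_conj ht.1.sq hu.1.sq ((C.loc a).some.odd_prod (H.iv ht.1 ht.2.1) (H.iv hu.1 hu.2.1) h)
  exact ⟨_, pow_mem (mul_mem (H.iv ht.1 ht.2.1).1 (H.iv hu.1 hu.2.1).1) k,
    pow_mem (mul_mem (H.iv ht.1 ht.2.2).1 (H.iv hu.1 hu.2.2).1) k, hk⟩

namespace Mx

variable {a b : Om} {t : G} (M : Mx C a b t)
include M

theorem field (R : R0 (C.N a) F K m i) (e : R.ζ 1 = t) : (AA R b).index = 2 ∨ (m = 3 ∧ Nat.card (AA R b) = 2) := by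
  have k : ∀ c, c ∉ AA R b → E C (Ys C a b t) (R.ζ c) ∧ R.ζ c • a = a := fun c hc => by
    obtain ⟨h1, h2, h3⟩ := (M.H.mem_Z R e).2 ⟨c, fun h => hc (h ▸ zero_mem _), rfl⟩
    exact ⟨⟨h1, M.cy a_mem h1 h2 h3, fun h => hc (mem_DP.1 h).2.2.1⟩, h2⟩
  obtain ⟨z, hz, hza⟩ := M.exists_E
  obtain ⟨c, -, rfl⟩ := (M.H.mem_Z R e).1 ⟨hz.1, hza, M.comm hz.2.1⟩
  have hc : c ∉ AA R b := fun h => hz.2.2 (mem_DP.2 ⟨hz.1, hza, h, M.comm hz.2.1⟩)
  have h1 : (1 : F) ∈ AA R b := by rw [mem_AA, e, M.hb]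
  refine field1 R.cardF _ h1 hc fun d hd => ?_
  obtain ⟨g, hg, ga, gb⟩ := M.SE' hz (k d hd).1 hza (k d hd).2
  obtain ⟨c0, τ, -, hτ⟩ := R.SL (C.nm ga)
    (R.Nm_of_comm (C.nm ga) (R.ζ_mem 1) (R.iv_ζ one_ne_zero).2.1 (e ▸ M.comm hg))
  have h2 : ∀ y ∈ AA R b, c0 * τ y = y := fun y hy => by
    by_cases h0 : y = 0
    · rw [h0, map_zero, mul_zero]
    · apply R.ζ_inj
      rw [← hτ, (mem_CY.1 hg _ ((M.H.mem_Ys R e).2 ⟨y, h0, hy, rfl⟩)).eq, mul_inv_cancel_right]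
  have h3 : c0 = 1 := by simpa using h2 1 h1
  subst h3
  simp only [one_mul] at h2 hτ
  refine ⟨τ, h2, ?_⟩
  rw [mem_AA, neg_eq_of_add_eq_zero_right (R.addF _), R.ζ_add, mul_smul, ← gb, hτ, ← mul_smul, R.ζ_sq, one_smul]

theorem cases : 2 * ((Ys C a b t).card + 1) = 2 ^ m ∨ (m = 3 ∧ (Ys C a b t).card = 1) := by
  obtain ⟨R, e⟩ := C.exists_at (M.H.iv M.d M.ha)
  have h := M.H.card_AA (b := b) R e
  rcases M.field R e with h1 | h1
  · left
    rw [← h, ← R.cardF, ← (AA R b).card_mul_index, h1, mul_comm]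
  · exact Or.inr ⟨h1.1, by omega⟩

theorem casesB {u : G} (hu : u ∈ Dab C a b) (hn : ¬ Commute t u) : (Ys C a b t).card = 1 ∧ (m = 2 ∨ m = 3) := by
  obtain ⟨R, e⟩ := C.exists_at (M.H.iv M.d M.ha)
  have h := M.H.card_AA (b := b) R e
  have ht : t ∈ Dab C a b := mem_DP.2 ⟨M.d, M.ha, M.hb⟩
  rcases M.field R e with h1 | h1
  · have := R.finF
    have h2 : Nat.card (AA R b) = 2 := by
      refine field2 R.addF _ (by rw [mem_AA, e, M.hb]) h1 fun x hx y hy => ?_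
      by_cases h0 : x = 0
      · rw [h0, zero_mul]; exact zero_mem _
      have h3 := mem_DP.1 ((M.H.mem_Ys R e).2 ⟨x, h0, hx, rfl⟩)
      have hu' := mem_DP.1 hu
      obtain ⟨g, g1, g2, g3⟩ := M.H.conj2 ht hu hn
      obtain ⟨g', g1', g2', g3'⟩ := M.H.conj2 hu (mem_DP.2 ⟨h3.1, h3.2.1, h3.2.2.1⟩) fun k =>
        hn (M.H.ctrans M.d h3.1 hu'.1 M.ha h3.2.1 hu'.2.1 h3.2.2.2.symm k.symm)
      have h4 : g' * g * R.ζ 1 * (g' * g)⁻¹ = R.ζ x := by rw [← g3', ← g3, e]; group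
      have h5 := mul_mem g1' g1
      obtain ⟨c, -, hc⟩ := R.B_scal h5
        (R.Nm_of_mem (le_Nm h5) (R.ζ_mem 1) (R.iv_ζ one_ne_zero).2.1 (h4 ▸ R.ζ_mem x))
      rw [hc, mul_one] at h4
      have h6 := C.fix _ _ (mul_mem g2' g2)
      rw [mem_AA, ← R.ζ_inj h4, ← hc, ← h6, conj_smul_iff]
      exact hy
    have h3 := (AA R b).card_mul_index
    rw [h1, h2, R.cardF] at h3
    exact ⟨by omega, Or.inl (Nat.pow_right_injective le_rfl (h3.symm : 2 ^ m = 2 ^ 2))⟩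
  · exact ⟨by omega, Or.inr h1.1⟩

section A

variable (hA : ∀ (x y : Om) (s s' : G), x ≠ y → s ∈ Dab C x y → s' ∈ Dab C x y → Commute s s')
include hA

theorem Ys_A {x y : Om} (hx : x ∈ FY Om (Ys C a b t)) (hy : y ∈ FY Om (Ys C a b t)) (h : x ≠ y) :
    Ys C a b t = Dab C x y := by
  rw [M.Ys_eq hx hy h]
  ext z
  rw [mem_DP, mem_DP]
  exact ⟨fun k => ⟨k.1, k.2.1, k.2.2.1⟩, fun k => ⟨k.1, k.2.1, k.2.2,
    hA x y _ _ h (mem_DP.2 k) (mem_DP.2 ⟨M.d, M.t_fix hx, M.t_fix hy⟩)⟩⟩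

theorem odd_Ys : Odd (Ys C a b t).card := by
  rcases M.cases with h | h
  · obtain ⟨k, rfl⟩ : ∃ k, m = k + 2 := ⟨m - 2, by have := (C.loc a).some.hm; omega⟩
    rw [pow_add] at h
    exact ⟨2 ^ k - 1, by have := Nat.one_le_two_pow (n := k); omega⟩
  · rw [h.2]; exact odd_one

theorem sw_E {x : Om} (hx : x ∈ FY Om (Ys C a b t)) (h : x ≠ a) {d : G} (hd : D C d) (e : d • a = x) :
    E C (Ys C a b t) d := by
  have e' : d • x = a := by rw [← e, hd.ss]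
  have hY := M.Ys_A hA a_mem hx h.symm
  have k : ∀ y ∈ Ys C a b t, d * y * d⁻¹ ∈ Ys C a b t := fun y hy => by
    rw [hY, mem_DP] at hy ⊢
    exact ⟨hy.1.conj d, by rw [← e', conj_smul_iff, hy.2.2], by rw [← e, conj_smul_iff, hy.2.1]⟩
  obtain ⟨c, hc, dc⟩ := M.exists_fix hd.sq fun p hp => mem_FY.2 fun y hy => by
    have := mem_FY.1 hp _ (k y hy)
    rw [hd.inv] at this
    rw [← hd.ss (y • d • p), ← mul_smul d y, ← mul_smul _ d, this]
  obtain ⟨y, hy⟩ := odd_fix (fun y : Ys C a b t => (⟨d * y * d⁻¹, k _ y.2⟩ : Ys C a b t))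
    (fun y => Subtype.ext (by simp only; rw [hd.inv, ← mul_assoc, ← mul_assoc, hd.sq, mul_assoc, hd.sq]; simp))
    (by rw [Nat.card_eq_fintype_card, Fintype.card_coe]; exact M.odd_Ys hA)
  have h2 := mem_DP.1 y.2
  refine ⟨hd, M.cy hc hd dc (M.H.ctrans hd h2.1 M.d dc (mem_FY.1 hc _ y.2) (M.t_fix hc) ?_ h2.2.2.2), fun k => h ?_⟩
  · exact mul_inv_eq_iff_eq_mul.1 (congrArg Subtype.val hy :)
  · rw [← e, (mem_DP.1 k).2.1]

theorem sw_A : (Sw C a b).card + (Dab C a b).card = 2 ^ m - 1 := by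
  rw [← M.Ys_A hA a_mem b_mem M.ne]
  refine M.cnt fun x hx h => ?_
  rw [card_Sw M.ne h.symm]
  congr 1
  ext d
  rw [mem_DP, mem_DP]
  exact ⟨fun k => ⟨k.1, k.2.2⟩, fun k => ⟨k.1, M.sw_E hA hx h k.1 k.2, k.2⟩⟩

theorem dvd_A : (Dab C a b).card ∣ (2 ^ m - 1) * ((Fx Om t).card - 1) := by
  rw [← M.H.card_Z M.d M.ha]
  refine Dvd.intro_left ((univ.erase a).filter fun c => ∃ z ∈ Dab C a c, Commute z t).card (Eq.symm ?_)
  refine Finset.card_mul_eq_card_mul (fun s c => s • c = c) (fun s hs => ?_) fun c hc => ?_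
  · rw [mem_DP] at hs
    rw [← card_Fx hs.1 M.d, ← card_erase_of_mem (mem_Fx.2 hs.2.1)]
    congr 1
    ext c
    rw [mem_bipartiteAbove, Finset.mem_filter, mem_erase, mem_erase, mem_Fx]
    exact ⟨fun h => ⟨h.1.1.1, h.2⟩, fun h => ⟨⟨⟨h.1, mem_univ _⟩, s, mem_DP.2 ⟨hs.1, hs.2.1, h.2⟩, hs.2.2⟩, h.2⟩⟩
  · obtain ⟨h1, z, hz, hc⟩ := Finset.mem_filter.1 hc
    have h2 := (mem_erase.1 h1).1.symm
    rw [← card_Dab h2 M.ne]
    congr 1
    ext s
    rw [mem_bipartiteBelow, mem_DP, mem_DP]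
    exact ⟨fun h => ⟨h.1.1, h.1.2.1, h.2⟩, fun h => ⟨⟨h.1, h.2.1, M.H.ctrans h.1 (mem_DP.1 hz).1 M.d h.2.1
      (mem_DP.1 hz).2.1 M.ha (hA a c _ _ h2 (mem_DP.2 h) hz) hc⟩, h.2.2⟩⟩

theorem numA : (Dab C a b).card = 1 ∧ (Sw C a b).card = 2 ∧ m = 2 ∧
    ((i = 1 ∧ (Fx Om t).card = 7) ∨ (i = 3 ∧ (Fx Om t).card = 97)) := by
  have h1 := M.sw_A hA
  have h2 := M.dvd_A hA
  have h3 := M.H.cnt3 M.ne M.d
  have h4 := M.cases
  rw [M.H.card_Da] at h3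
  rw [M.Ys_A hA a_mem b_mem M.ne] at h4
  obtain ⟨R⟩ := C.loc a
  generalize (Dab C a b).card = u at *
  generalize (Sw C a b).card = s at *
  generalize (Fx Om t).card = f at *
  rcases h4 with h4 | ⟨rfl, rfl⟩
  · obtain ⟨j, hj⟩ : ∃ j, i = j + 1 := ⟨i - 1, by have := R.i_cases; omega⟩
    have hs : s = u + 1 := by omega
    have hq : 2 ^ m - 1 = 2 * u + 1 := by omega
    rw [hq] at h2 h3
    rw [hj, pow_succ, ← h4, hs] at h3
    have hf : f = 2 * (2 * (u + 1)) ^ j * (2 * u + 1) + 1 :=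
      Nat.eq_of_mul_eq_mul_left (show 0 < u + 1 by omega) (by nlinarith)
    rw [hf, Nat.add_sub_cancel] at h2
    have hu : Odd u := by
      obtain ⟨k, hk⟩ : ∃ k, m = k + 2 := ⟨m - 2, by have := R.hm; omega⟩
      rw [hk, pow_add] at h4
      exact ⟨2 ^ k - 1, by have := Nat.one_le_two_pow (n := k); omega⟩
    have c1 : u.Coprime (2 * u + 1) := by simp
    have c2 : u.Coprime 2 := Nat.coprime_two_right.2 hu
    have c3 : u.Coprime (u + 1) := by simp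
    have u1 : u = 1 := Nat.Coprime.eq_one_of_dvd (c1.mul_right ((c2.mul_right ((c2.mul_right c3).pow_right j)).mul_right c1)) h2
    subst u1
    have hm : m = 2 := Nat.pow_right_injective le_rfl (h4.symm : 2 ^ m = 2 ^ 2)
    refine ⟨rfl, hs, hm, ?_⟩
    rcases R.typ with h | h | h
    · obtain rfl : j = 0 := by omega
      exact Or.inl ⟨h.1, hf⟩
    · exact absurd (hm ▸ h.2.1 : Odd 2) (by decide)
    · obtain rfl : j = 2 := by omega
      exact Or.inr ⟨h.1, hf⟩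
  · exfalso
    obtain rfl : s = 6 := by omega
    rcases R.i_cases with rfl | rfl | rfl <;> omega

end A

end Mx

end Cfsg.Agent.L0.T3
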