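import Cfsg.Agent.L0.T3.D

/-! Reduction to the case where distinct involutions fixing two points do not commute. -/

set_option autoImplicit false
set_option linter.unusedSectionVars false

namespace Cfsg.Agent.L0.T3

open Cfsg.Agent.H5.TA Subgroup MulAction Finset
open scoped Classical

variable {G Om : Type*} [Group G] [Fintype G] [Fintype Om] [MulAction G Om] {F K : Type} [Field F] [Field K]
  {m i : ℕ} {C : Cfg G Om F K m i}

/-- The data of the remaining case. -/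
structure NC (C : Cfg G Om F K m i) : Prop where
  H : Hy C
  hm : m = 2 ∨ m = 3
  hs : ∀ a b t u, a ≠ b → t ∈ Dab C a b → u ∈ Dab C a b → Commute u t → u = t
  hu : ∀ a b, a ≠ b → 1 < (Dab C a b).card
  mx : ∀ a b t, a ≠ b → t ∈ Dab C a b → Mx C a b t

theorem Hy.nc [Nonempty Om] (H : Hy C) : NC C := by
  obtain ⟨a, b, t, M⟩ := H.exists_Mx
  by_cases hA : ∀ (x y : Om) (s s' : G), x ≠ y → s ∈ Dab C x y → s' ∈ Dab C x y → Commute s s'
  · obtain ⟨h1, h2, h3, h4⟩ := M.numA hA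
    refine (U1.false (C := C) (p := (Fx Om t).card) ⟨H, fun x y h => (card_Dab h M.ne).trans h1,
      fun x y h => (card_Sw h M.ne).trans h2, h3, ?_, fun u hu => card_Fx hu M.d, ?_, ?_⟩).elim <;>
    rcases h4 with ⟨h4, h5⟩ | ⟨h4, h5⟩ <;> rw [h5] <;> norm_num [h3, h4]
  push Not at hA
  obtain ⟨x, y, s, s', hxy, hs, hs', hn⟩ := hA
  have k : ∀ a b, a ≠ b → ∃ s ∈ Dab C a b, ∃ s' ∈ Dab C a b, ¬ Commute s s' := fun a b hab => by
    obtain ⟨g, rfl, rfl⟩ := C.two x y a b hxy hab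
    rw [mem_DP] at hs hs'
    exact ⟨_, mem_DP.2 ⟨hs.1.conj g, conj_smul_iff.2 hs.2.1, conj_smul_iff.2 hs.2.2⟩, _,
      mem_DP.2 ⟨hs'.1.conj g, conj_smul_iff.2 hs'.2.1, conj_smul_iff.2 hs'.2.2⟩, mt conj_comm_iff.1 hn⟩
  obtain ⟨u, hu, hn⟩ : ∃ u ∈ Dab C a b, ¬ Commute t u := by
    obtain ⟨u, hu, u', hu', hn⟩ := k a b M.ne
    by_contra! h
    exact hn (H.ctrans (mem_DP.1 hu).1 M.d (mem_DP.1 hu').1 (mem_DP.1 hu).2.1 M.ha (mem_DP.1 hu').2.1 (h u hu).symm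
      (h u' hu'))
  obtain ⟨h1, h2⟩ := M.casesB hu hn
  have k1 : ∀ a b t, a ≠ b → t ∈ Dab C a b → t ∈ Ys C a b t := fun a b t _ ht =>
    mem_DP.2 ⟨(mem_DP.1 ht).1, (mem_DP.1 ht).2.1, (mem_DP.1 ht).2.2, Commute.refl _⟩
  have k2 : ∀ a b t, a ≠ b → D C t → t • a = a → t • b = b → (Ys C a b t).card ≤ 1 := fun a b t a1 a2 a3 a4 =>
    h1 ▸ M.max a b t a1 a2 a3 a4
  refine ⟨H, h2, fun a b t u hab ht hu hc => ?_, fun a b hab => ?_, fun a b t hab ht => ?_⟩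
  · rw [mem_DP] at hu
    exact card_le_one.1 (k2 a b t hab (mem_DP.1 ht).1 (mem_DP.1 ht).2.1 (mem_DP.1 ht).2.2) _
      (mem_DP.2 ⟨hu.1, hu.2.1, hu.2.2, hc⟩) _ (k1 a b t hab ht)
  · obtain ⟨u, hu, u', hu', hn⟩ := k a b hab
    exact one_lt_card.2 ⟨u, hu, u', hu', fun e => hn (e ▸ Commute.refl _)⟩
  · exact ⟨H, hab, (mem_DP.1 ht).1, (mem_DP.1 ht).2.1, (mem_DP.1 ht).2.2, fun a' b' t' a1 a2 a3 a4 =>
      (k2 a' b' t' a1 a2 a3 a4).trans (card_pos.2 ⟨t, k1 a b t hab ht⟩)⟩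

end Cfsg.Agent.L0.T3
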