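import Cfsg.Agent.H5.TA4

/-! Counting in the configuration where involutions of the `N x` lie in `N y` for all their fixed points `y`. -/

set_option autoImplicit false
set_option linter.unusedSectionVars false

namespace Cfsg.Agent.L0.T3

open Cfsg.Agent.H5.TA Subgroup MulAction Finset
open scoped Classical

variable {G Om : Type*} [Group G] [Fintype G] [Fintype Om] [MulAction G Om] {F K : Type} [Field F] [Field K]
  {m i : ℕ}

/-- The hypotheses. -/
structure Hy (C : Cfg G Om F K m i) : Prop where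
  h1 : ∀ a b, a ≠ b → ∃ t, Iv (C.N a) t ∧ t ∈ C.N b
  hF : ∀ a b t, Iv (C.N a) t → t • b = b → t ∈ C.N b
  hZ : ∀ a b t, a ≠ b → Iv (C.N a) t → t ∈ C.N b → ∃ u, Iv (C.N a) u ∧ Commute u t ∧ u • b ≠ b

variable (C : Cfg G Om F K m i)

/-- The class of involutions. -/
def D (t : G) : Prop := ∃ x, Iv (C.N x) t

/-- Involutions with a property. -/
noncomputable def DP (P : G → Prop) : Finset G := univ.filter fun t => D C t ∧ P t

/-- Fixed points. -/
noncomputable def Fx (Om : Type*) [Fintype Om] [MulAction G Om] (t : G) : Finset Om := univ.filter fun x => t • x = x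

variable {C}

@[simp] theorem mem_DP {P : G → Prop} {t : G} : t ∈ DP C P ↔ D C t ∧ P t := by simp [DP]

@[simp] theorem mem_Fx {t : G} {x : Om} : x ∈ Fx Om t ↔ t • x = x := by simp [Fx]

theorem D.sq {t : G} (h : D C t) : t * t = 1 := h.choose_spec.2.2

theorem D.ne {t : G} (h : D C t) : t ≠ 1 := h.choose_spec.2.1

theorem D.inv {t : G} (h : D C t) : t⁻¹ = t := h.choose_spec.inv

theorem D.ss {t : G} (h : D C t) (x : Om) : t • t • x = x := by rw [← mul_smul, h.sq, one_smul]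

theorem D.conj {t : G} (h : D C t) (g : G) : D C (g * t * g⁻¹) :=
  ⟨_, C.iv_conj rfl h.choose_spec⟩

theorem D.conj_iff {t g : G} : D C (g * t * g⁻¹) ↔ D C t :=
  ⟨fun h => by simpa [mul_assoc] using h.conj g⁻¹, fun h => h.conj g⟩

theorem D.of {x : Om} {t : G} (h : Iv (C.N x) t) : D C t := ⟨x, h⟩

theorem D.exists_fix {t : G} (h : D C t) : ∃ x : Om, t • x = x := ⟨_, C.fix _ _ h.choose_spec.1⟩

theorem D.isConj {t u : G} (h : D C t) (h' : D C u) : ∃ g : G, g * t * g⁻¹ = u :=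
  let ⟨g, _, e⟩ := C.iv_isConj h.choose_spec h'.choose_spec
  ⟨g, e⟩

theorem conj_smul_iff {g t : G} {x y : Om} : (g * t * g⁻¹) • g • x = g • y ↔ t • x = y := by
  simp [mul_smul]

theorem conj_comm_iff {g t u : G} : Commute (g * t * g⁻¹) (g * u * g⁻¹) ↔ Commute t u :=
  ⟨fun h => by simpa [mul_assoc] using h.conj g⁻¹, fun h => h.conj g⟩

theorem comm_smul {g t : G} (h : Commute g t) {x : Om} (hx : t • x = x) : t • g • x = g • x := by
  rw [← mul_smul, ← h.eq, mul_smul, hx]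

theorem card_conj (g : G) {P P' : G → Prop} (h : ∀ t, D C t → (P' (g * t * g⁻¹) ↔ P t)) :
    (DP C P).card = (DP C P').card := by
  refine Finset.card_bij (fun t _ => g * t * g⁻¹) (fun t ht => ?_) (fun t _ t' _ e => by simpa using e) fun t ht => ?_
  · rw [mem_DP] at ht ⊢
    exact ⟨ht.1.conj g, (h t ht.1).2 ht.2⟩
  · rw [mem_DP] at ht
    have e : g * (g⁻¹ * t * g⁻¹⁻¹) * g⁻¹ = t := by group
    exact ⟨g⁻¹ * t * g⁻¹⁻¹, mem_DP.2 ⟨ht.1.conj _, (h _ (ht.1.conj _)).1 (e.symm ▸ ht.2)⟩, e⟩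

theorem card_Fx_conj (g t : G) : (Fx Om (g * t * g⁻¹)).card = (Fx Om t).card := by
  symm
  refine Finset.card_bij (fun x _ => g • x) (fun x hx => ?_) (fun x _ y _ e => by simpa using e) fun x hx => ?_
  · rw [mem_Fx] at hx ⊢
    exact conj_smul_iff.2 hx
  · refine ⟨g⁻¹ • x, mem_Fx.2 (conj_smul_iff (g := g).1 ?_), by simp⟩
    simpa using hx

theorem card_Fx {t u : G} (h : D C t) (h' : D C u) : (Fx Om t).card = (Fx Om u).card := by
  obtain ⟨g, rfl⟩ := h.isConj h'
  exact (card_Fx_conj g t).symm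

/-- Involutions fixing two points. -/
noncomputable abbrev Dab (C : Cfg G Om F K m i) (a b : Om) : Finset G := DP C fun t => t • a = a ∧ t • b = b

/-- Involutions mapping one point to another. -/
noncomputable abbrev Sw (C : Cfg G Om F K m i) (a b : Om) : Finset G := DP C fun t => t • a = b

theorem card_Dab {a b c d : Om} (h : a ≠ b) (h' : c ≠ d) : (Dab C a b).card = (Dab C c d).card := by
  obtain ⟨g, rfl, rfl⟩ := C.two a b c d h h'
  exact card_conj g fun t _ => by rw [conj_smul_iff, conj_smul_iff]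

theorem card_Sw {a b c d : Om} (h : a ≠ b) (h' : c ≠ d) : (Sw C a b).card = (Sw C c d).card := by
  obtain ⟨g, rfl, rfl⟩ := C.two a b c d h h'
  exact card_conj g fun t _ => by rw [conj_smul_iff]

theorem card_all_sw {a b : Om} (h : a ≠ b) :
    (DP C fun _ => True).card = (Sw C a a).card + (Fintype.card Om - 1) * (Sw C a b).card := by
  rw [Finset.card_eq_sum_card_fiberwise (f := fun t : G => t • a) (t := univ) (fun _ _ => mem_univ _),
    ← Finset.add_sum_erase _ _ (mem_univ a)]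
  have e : ∀ c, (DP C fun _ => True).filter (fun t => t • a = c) = Sw C a c := fun c => by ext; simp
  simp only [e]
  rw [Finset.sum_congr rfl fun c hc => card_Sw (mem_erase.1 hc).1.symm h, sum_const, card_erase_of_mem (mem_univ _),
    card_univ, smul_eq_mul]

namespace Hy

variable (H : Hy C)
include H

theorem iv {t : G} (h : D C t) {x : Om} (hx : t • x = x) : Iv (C.N x) t :=
  ⟨H.hF _ x t h.choose_spec hx, h.ne, h.sq⟩

theorem iv_iff {t : G} {x : Om} : Iv (C.N x) t ↔ D C t ∧ t • x = x :=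
  ⟨fun h => ⟨D.of h, C.fix _ _ h.1⟩, fun h => H.iv h.1 h.2⟩

theorem exists_Dab {a b : Om} (h : a ≠ b) : ∃ t, D C t ∧ t • a = a ∧ t • b = b :=
  let ⟨t, h1, h2⟩ := H.h1 a b h
  ⟨t, D.of h1, C.fix _ _ h1.1, C.fix _ _ h2⟩

theorem exists_move {a b : Om} (h : a ≠ b) {t : G} (ht : D C t) (ha : t • a = a) (hb : t • b = b) :
    ∃ u, D C u ∧ u • a = a ∧ Commute u t ∧ u • b ≠ b :=
  let ⟨u, h1, h2, h3⟩ := H.hZ a b t h (H.iv ht ha) (H.iv ht hb).1
  ⟨u, D.of h1, C.fix _ _ h1.1, h2, h3⟩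

theorem ctrans {x : Om} {t u v : G} (ht : D C t) (hu : D C u) (hv : D C v) (a1 : t • x = x) (a2 : u • x = x)
    (a3 : v • x = x) (h1 : Commute t u) (h2 : Commute u v) : Commute t v :=
  (C.loc x).some.comm_trans (H.iv ht a1) (H.iv hu a2) (H.iv hv a3) h1 h2

theorem card_Da (a : Om) : (Sw C a a).card = ((2 ^ m) ^ i + 1) * (2 ^ m - 1) := by
  rw [← (C.loc a).some.card_iv, Nat.card_eq_fintype_card, Fintype.card_subtype]
  congr 1
  ext t
  simp [H.iv_iff]

/-- Involutions fixing a point and commuting with a given one. -/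
theorem mem_Z {x : Om} (R : R0 (C.N x) F K m i) {t z : G} (e : R.ζ 1 = t) :
    (D C z ∧ z • x = x ∧ Commute z t) ↔ ∃ c, c ≠ 0 ∧ R.ζ c = z := by
  subst e
  constructor
  · rintro ⟨h1, h2, h3⟩
    obtain ⟨c, rfl⟩ := R.iv_mem_Z_of_comm (H.iv h1 h2) (R.ζ_mem 1) (R.iv_ζ one_ne_zero).2.1 h3
    exact ⟨c, fun e => h1.ne (by rw [e, R.ζ_zero]), rfl⟩
  · rintro ⟨c, hc, rfl⟩
    exact ⟨D.of (R.iv_ζ hc), C.fix _ _ (R.iv_ζ hc).1, R.ζ_comm c _ (R.ζ_mem 1)⟩

theorem card_Z {x : Om} {t : G} (ht : D C t) (hx : t • x = x) :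
    (DP C fun z => z • x = x ∧ Commute z t).card = 2 ^ m - 1 := by
  obtain ⟨R, e⟩ := C.exists_at (H.iv ht hx)
  haveI := R.finF
  haveI := Fintype.ofFinite F
  have : (DP C fun z => z • x = x ∧ Commute z t) = (univ.erase (0 : F)).image R.ζ := by
    ext z
    simp [H.mem_Z R e]
  rw [this, card_image_of_injective _ R.ζ_inj, card_erase_of_mem (mem_univ _), card_univ, ← Nat.card_eq_fintype_card,
    R.cardF]

/-- The product of two distinct commuting involutions with a common fixed point. -/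
theorem mul_D {x : Om} {t z : G} (ht : D C t) (hz : D C z) (a1 : t • x = x) (a2 : z • x = x) (h : Commute z t)
    (hne : z ≠ t) : D C (z * t) := by
  refine D.of (x := x) ⟨mul_mem (H.iv hz a2).1 (H.iv ht a1).1, fun e => hne ?_, ?_⟩
  · rw [eq_inv_of_mul_eq_one_left e, ht.inv]
  · rw [mul_assoc, ← mul_assoc t, ← h.eq, mul_assoc, ht.sq, mul_one, hz.sq]

theorem cnt1 {a b : Om} (h : a ≠ b) {t : G} (ht : D C t) :
    (Sw C a a).card * ((Fx Om t).card - 1) = (Fintype.card Om - 1) * (Dab C a b).card := by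
  rw [← card_univ, ← card_erase_of_mem (mem_univ a)]
  refine Finset.card_mul_eq_card_mul (fun s c => s • c = c) (fun s hs => ?_) fun c hc => ?_
  · rw [mem_DP] at hs
    rw [← card_Fx hs.1 ht, ← card_erase_of_mem (mem_Fx.2 hs.2)]
    congr 1
    ext c
    simp [bipartiteAbove]
  · rw [← card_Dab (mem_erase.1 hc).1.symm h]
    congr 1
    ext s
    simp [bipartiteBelow, and_assoc]

theorem cnt2 (a : Om) {t : G} (ht : D C t) :
    (DP C fun _ => True).card * (Fx Om t).card = Fintype.card Om * (Sw C a a).card := by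
  rw [← card_univ]
  refine Finset.card_mul_eq_card_mul (fun s c => s • c = c) (fun s hs => ?_) fun c hc => ?_
  · rw [mem_DP] at hs
    rw [← card_Fx hs.1 ht]
    congr 1
  · rw [H.card_Da a, ← H.card_Da c]
    congr 1
    ext s
    simp [bipartiteBelow]

theorem cnt3 {a b : Om} (h : a ≠ b) {t : G} (ht : D C t) :
    (Sw C a b).card * (Fx Om t).card + (Dab C a b).card = (Sw C a a).card := by
  have h1 := H.cnt1 h ht
  have h2 := H.cnt2 a ht
  rw [card_all_sw h] at h2
  have hv : 1 < Fintype.card Om := Fintype.one_lt_card_iff.2 ⟨a, b, h⟩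
  have hf : 0 < (Fx Om t).card := let ⟨x, hx⟩ := ht.exists_fix; card_pos.2 ⟨x, mem_Fx.2 hx⟩
  obtain ⟨v, hv'⟩ : ∃ v, Fintype.card Om = v + 1 := ⟨_, (Nat.sub_add_cancel hv.le).symm⟩
  obtain ⟨f, hf'⟩ : ∃ f, (Fx Om t).card = f + 1 := ⟨_, (Nat.sub_add_cancel hf).symm⟩
  rw [hv', hf', Nat.add_sub_cancel] at h1 h2
  rw [Nat.add_sub_cancel] at h1
  rw [hf']
  refine Nat.eq_of_mul_eq_mul_left (show 0 < v by omega) ?_
  nlinarith

end Hy

end Cfsg.Agent.L0.T3
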