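import Cfsg.Agent.L0.T3.A

/-! A field lemma, dihedral groups, and the largest subgroups `Y`. -/

set_option autoImplicit false
set_option linter.unusedSectionVars false

namespace Cfsg.Agent.L0.T3

open Cfsg.Agent.H5.TA Subgroup MulAction Finset
open scoped Classical

theorem field1 {F : Type} [Field F] {m : ℕ} (hF : Nat.card F = 2 ^ m) (A : AddSubgroup F) (h1 : (1 : F) ∈ A)
    {c : F} (hc : c ∉ A) (h : ∀ d, d ∉ A → ∃ τ : F ≃+* F, (∀ y ∈ A, τ y = y) ∧ -τ c + d ∈ A) :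
    A.index = 2 ∨ (m = 3 ∧ Nat.card A = 2) := by
  have : Finite F := Nat.finite_of_card_ne_zero (by rw [hF]; positivity)
  let Γ : Subgroup (RingAut F) :=
    { carrier := {τ | ∀ y ∈ A, τ y = y}
      one_mem' := fun _ _ => rfl
      mul_mem' := fun {σ τ} hσ hτ y hy => by
        change σ (τ y) = y
        rw [hτ y hy, hσ y hy]
      inv_mem' := fun {σ} hσ y hy => by
        change σ.symm y = y
        rw [RingEquiv.symm_apply_eq, hσ y hy] }
  have : Finite (RingAut F) := Finite.of_injective (fun τ : RingAut F => (τ : F → F)) DFunLike.coe_injective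
  have := Fintype.ofFinite Γ
  have hn := FixedPoints.finrank_eq_card Γ F
  have hq := Module.natCard_eq_pow_finrank (K := FixedPoints.subfield Γ F) (V := F)
  have hy : Nat.card A ≤ Nat.card (FixedPoints.subfield Γ F) :=
    Nat.card_le_card_of_injective (fun y => ⟨y.1, fun τ => τ.2 y.1 y.2⟩) fun y y' e =>
      Subtype.ext (congrArg Subtype.val e :)
  have hr : A.index ≤ Fintype.card Γ + 1 := by
    rw [← Fintype.card_option, ← Nat.card_eq_fintype_card]
    refine Nat.card_le_card_of_surjective (fun o : Option Γ => o.elim (0 : F ⧸ A) fun τ => ((τ.1 c : F) : F ⧸ A)) ?_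
    intro x
    obtain ⟨d, rfl⟩ := QuotientAddGroup.mk_surjective x
    by_cases hd : d ∈ A
    · exact ⟨none, ((QuotientAddGroup.eq_zero_iff d).2 hd).symm⟩
    · obtain ⟨τ, h2, h3⟩ := h d hd
      exact ⟨some ⟨τ, h2⟩, QuotientAddGroup.eq.2 h3⟩
  have hm := A.card_mul_index
  rw [hF] at hm hq
  obtain ⟨k, -, hk⟩ := (Nat.dvd_prime_pow Nat.prime_two).1 (Dvd.intro _ hm)
  obtain ⟨s, -, hs⟩ := (Nat.dvd_prime_pow Nat.prime_two).1 (Dvd.intro_left _ hm)
  have k0 : k ≠ 0 := by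
    rintro rfl
    have := AddSubgroup.eq_bot_of_card_eq A hk
    rw [this] at h1
    exact one_ne_zero (AddSubgroup.mem_bot.1 h1)
  have s0 : s ≠ 0 := by
    rintro rfl
    rw [AddSubgroup.index_eq_one.1 hs] at hc
    exact hc trivial
  rw [hk, hs, ← pow_add] at hm
  have hm' := Nat.pow_right_injective le_rfl hm
  rw [hn] at hq
  have h3 : k * Fintype.card Γ ≤ m := by
    rw [← Nat.pow_le_pow_iff_right (one_lt_two), pow_mul, hq, ← hk]
    exact Nat.pow_le_pow_left hy _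
  rw [hs] at hr ⊢
  rw [hk]
  by_cases s1 : s = 1
  · left; rw [s1]; rfl
  · right
    obtain ⟨s, rfl⟩ : ∃ j, s = j + 2 := ⟨s - 2, by omega⟩
    have h4 : s < 2 ^ s := Nat.lt_two_pow_self
    rw [pow_add] at hr
    obtain ⟨k, rfl⟩ : ∃ j, k = j + 1 := ⟨k - 1, by omega⟩
    have h5 : 4 * s + 3 ≤ Fintype.card Γ := by omega
    have h6 := Nat.mul_le_mul_left (k + 1) h5
    have : s = 0 := by nlinarith
    subst this
    have : k = 0 := by nlinarith
    subst this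
    exact ⟨by omega, rfl⟩

theorem field2 {F : Type} [Field F] [Finite F] (h2 : ∀ x : F, x + x = 0) (A : AddSubgroup F) (h1 : (1 : F) ∈ A)
    (hi : A.index = 2) (h : ∀ x ∈ A, ∀ y ∈ A, x * y ∈ A) : Nat.card A = 2 := by
  obtain ⟨x, hx⟩ : ∃ x, x ∉ A := by
    by_contra! hh
    rw [(AddSubgroup.eq_top_iff' A).2 hh, AddSubgroup.index_top] at hi
    omega
  have k : ∀ y ∈ A, y ≠ 0 → y * x ∉ A := fun y hy h0 hxy => by
    have : Function.Surjective fun a : A => (⟨y * a, h y hy a a.2⟩ : A) :=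
      Finite.surjective_of_injective fun a a' e => Subtype.ext (mul_left_cancel₀ h0 (congrArg Subtype.val e :))
    obtain ⟨a, e⟩ := this ⟨_, hxy⟩
    exact hx (mul_left_cancel₀ h0 (congrArg Subtype.val e :) ▸ a.2)
  rw [Nat.card_eq_two_iff]
  refine ⟨0, ⟨1, h1⟩, fun e => zero_ne_one (congrArg Subtype.val e :), Set.eq_univ_of_forall fun y => ?_⟩
  by_contra hy
  simp only [Set.mem_insert_iff, Set.mem_singleton_iff, not_or, Subtype.ext_iff] at hy
  refine k (y + 1) (add_mem y.2 h1) (fun e => hy.2 ?_) ?_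
  · linear_combination e - h2 1
  · rw [add_mul, one_mul, AddSubgroup.add_mem_iff_of_index_two hi]
    exact iff_of_false (k y y.2 hy.1) hx

section dih

variable {G : Type*} [Group G] {z z' : G}

theorem dih0 (hz : z * z = 1) (hz' : z' * z' = 1) (k : ℕ) : z * ((z * z') ^ k)⁻¹ = (z * z') ^ k * z := by
  have : SemiconjBy z (z * z')⁻¹ (z * z') := by
    rw [SemiconjBy, mul_inv_rev, inv_eq_of_mul_eq_one_right hz, inv_eq_of_mul_eq_one_right hz', mul_assoc]
  rw [← inv_pow]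
  exact this.pow_right k

theorem dih0' (hz : z * z = 1) (hz' : z' * z' = 1) (k : ℕ) : z' * ((z * z') ^ k)⁻¹ = (z * z') ^ k * z' := by
  have : SemiconjBy z' (z * z')⁻¹ (z * z') := by
    rw [SemiconjBy, mul_inv_rev, inv_eq_of_mul_eq_one_right hz, inv_eq_of_mul_eq_one_right hz', mul_assoc, hz',
      ← mul_assoc, hz', one_mul, mul_one]
  rw [← inv_pow]
  exact this.pow_right k

theorem dih1 (hz : z * z = 1) (hz' : z' * z' = 1) (k : ℕ) :
    (z * z') ^ k * z * ((z * z') ^ k)⁻¹ = (z * z') ^ (2 * k) * z := by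
  rw [mul_assoc, dih0 hz hz', ← mul_assoc, ← pow_add, two_mul]

theorem dih2 (hz : z * z = 1) (hz' : z' * z' = 1) (k : ℕ) :
    (z * z') ^ (k + 1) * z' * ((z * z') ^ (k + 1))⁻¹ = (z * z') ^ (2 * k + 1) * z := by
  rw [mul_assoc, dih0' hz hz', ← mul_assoc, ← pow_add, show k + 1 + (k + 1) = 2 * k + 1 + 1 by ring, pow_succ _ (_ + 1),
    mul_assoc, mul_assoc, hz', mul_one]

theorem dih3 (hz : z * z = 1) (hz' : z' * z' = 1) (k : ℕ) :
    (z * z') ^ k * z * ((z * z') ^ k)⁻¹ = (z * z') ^ (2 * k + 1) * z' := by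
  rw [dih1 hz hz', pow_succ, mul_assoc, mul_assoc, hz', mul_one]

theorem dih (hz : z * z = 1) (hz' : z' * z' = 1) (P : G → Prop) (h : P z) (h' : P z')
    (hP : ∀ x j, P x → P ((z * z') ^ j * x * ((z * z') ^ j)⁻¹)) (k : ℕ) : P ((z * z') ^ k * z) := by
  obtain ⟨j, rfl | rfl⟩ := Nat.even_or_odd' k
  · exact dih1 hz hz' j ▸ hP z j h
  · exact dih2 hz hz' j ▸ hP z' (j + 1) h'

theorem dih_conj (hz : z * z = 1) (hz' : z' * z' = 1) (h : Odd (orderOf (z * z'))) :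
    ∃ k, (z * z') ^ k * z * ((z * z') ^ k)⁻¹ = z' := by
  obtain ⟨k, hk⟩ := h
  exact ⟨k, by rw [dih3 hz hz', ← hk, pow_orderOf_eq_one, one_mul]⟩

end dih

variable {G Om : Type*} [Group G] [Fintype G] [Fintype Om] [MulAction G Om] {F K : Type} [Field F] [Field K]
  {m i : ℕ} {C : Cfg G Om F K m i}

/-- Involutions fixing two points and commuting with a given one. -/
noncomputable abbrev Ys (C : Cfg G Om F K m i) (a b : Om) (t : G) : Finset G :=
  DP C fun z => z • a = a ∧ z • b = b ∧ Commute z t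

/-- Common fixed points. -/
noncomputable def FY (Om : Type*) [Fintype Om] [MulAction G Om] (Y : Finset G) : Finset Om :=
  univ.filter fun x => ∀ y ∈ Y, y • x = x

theorem mem_FY {Y : Finset G} {x : Om} : x ∈ FY Om Y ↔ ∀ y ∈ Y, y • x = x := by simp [FY]

/-- The centraliser. -/
abbrev CY (Y : Finset G) : Subgroup G := centralizer (Y : Set G)

theorem mem_CY {Y : Finset G} {g : G} : g ∈ CY Y ↔ ∀ y ∈ Y, Commute g y :=
  mem_centralizer_iff.trans (forall₂_congr fun _ _ => eq_comm)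

theorem CY_smul {Y : Finset G} {g : G} (hg : g ∈ CY Y) {x : Om} (hx : x ∈ FY Om Y) : g • x ∈ FY Om Y :=
  mem_FY.2 fun y hy => comm_smul (mem_CY.1 hg y hy) (mem_FY.1 hx y hy)

/-- Involutions centralising `Y` outside `Y`. -/
def E (C : Cfg G Om F K m i) (Y : Finset G) (d : G) : Prop := D C d ∧ d ∈ CY Y ∧ d ∉ Y

theorem E.conj {Y : Finset G} {d g : G} (h : E C Y d) (hg : g ∈ CY Y) : E C Y (g * d * g⁻¹) :=
  ⟨h.1.conj g, mul_mem (mul_mem hg h.2.1) (inv_mem hg), fun k => h.2.2 (by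
    have := (mem_CY.1 (inv_mem hg) _ k).eq
    rwa [show d = g * d * g⁻¹ by
      calc d = g⁻¹ * (g * d * g⁻¹) * g := by group
        _ = _ := by rw [this]; group])⟩

theorem odd_fix' {s : Finset Om} (hs : Odd s.card) {d : G} (hd : d * d = 1) (h : ∀ x ∈ s, d • x ∈ s) :
    ∃ x ∈ s, d • x = x := by
  obtain ⟨x, hx⟩ := odd_fix (fun x : s => (⟨d • x.1, h _ x.2⟩ : s))
    (fun x => Subtype.ext (by simp only; rw [← mul_smul, hd, one_smul])) (by simpa using hs)
  exact ⟨x, x.2, congrArg Subtype.val hx⟩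

theorem odd_of_one' {s : Finset Om} {d : G} (hd : d * d = 1) (h : ∀ x ∈ s, d • x ∈ s) {a : Om} (ha : a ∈ s)
    (h1 : ∀ x ∈ s, d • x = x ↔ x = a) : Odd s.card := by
  simpa using odd_of_one_fix (fun x : s => (⟨d • x.1, h _ x.2⟩ : s))
    (fun x => Subtype.ext (by simp only; rw [← mul_smul, hd, one_smul])) ⟨a, ha⟩
    fun x => by simpa [Subtype.ext_iff] using h1 x x.2

/-- A triple with the largest `Y`. -/
structure Mx (C : Cfg G Om F K m i) (a b : Om) (t : G) : Prop where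
  H : Hy C
  ne : a ≠ b
  d : D C t
  ha : t • a = a
  hb : t • b = b
  max : ∀ a' b' t', a' ≠ b' → D C t' → t' • a' = a' → t' • b' = b' → (Ys C a' b' t').card ≤ (Ys C a b t).card

theorem Hy.exists_Mx [Nonempty Om] (H : Hy C) : ∃ a b t, Mx C a b t := by
  obtain ⟨a⟩ := ‹Nonempty Om›
  obtain ⟨b, hab⟩ := C.exists_ne a
  obtain ⟨t, ht⟩ := H.exists_Dab hab
  obtain ⟨⟨a, b, t⟩, h1, h2⟩ := Finset.exists_max_image
    (univ.filter fun p : Om × Om × G => p.1 ≠ p.2.1 ∧ D C p.2.2 ∧ p.2.2 • p.1 = p.1 ∧ p.2.2 • p.2.1 = p.2.1)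
    (fun p => (Ys C p.1 p.2.1 p.2.2).card) ⟨(a, b, t), by simpa using ⟨hab, ht⟩⟩
  simp only [Finset.mem_filter, mem_univ, true_and] at h1 h2
  exact ⟨a, b, t, H, h1.1, h1.2.1, h1.2.2.1, h1.2.2.2, fun a' b' t' k1 k2 k3 k4 => h2 (a', b', t') ⟨k1, k2, k3, k4⟩⟩

namespace Mx

variable {a b : Om} {t : G} (M : Mx C a b t)
include M

theorem t_mem : t ∈ Ys C a b t := mem_DP.2 ⟨M.d, M.ha, M.hb, Commute.refl _⟩

omit M in
theorem a_mem : a ∈ FY Om (Ys C a b t) := mem_FY.2 fun _ hy => (mem_DP.1 hy).2.1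

omit M in
theorem b_mem : b ∈ FY Om (Ys C a b t) := mem_FY.2 fun _ hy => (mem_DP.1 hy).2.2.1

theorem t_fix {e : Om} (he : e ∈ FY Om (Ys C a b t)) : t • e = e := mem_FY.1 he t M.t_mem

theorem Ys_eq {e e' : Om} (he : e ∈ FY Om (Ys C a b t)) (he' : e' ∈ FY Om (Ys C a b t)) (h : e ≠ e') :
    Ys C a b t = Ys C e e' t :=
  Finset.eq_of_subset_of_card_le
    (fun y hy => mem_DP.2 ⟨(mem_DP.1 hy).1, mem_FY.1 he y hy, mem_FY.1 he' y hy, (mem_DP.1 hy).2.2.2⟩)
    (M.max e e' t h M.d (M.t_fix he) (M.t_fix he'))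

theorem cy {e : Om} (he : e ∈ FY Om (Ys C a b t)) {z : G} (hz : D C z) (h1 : z • e = e) (h2 : Commute z t) :
    z ∈ CY (Ys C a b t) := mem_CY.2 fun y hy =>
  M.H.ctrans hz M.d (mem_DP.1 hy).1 h1 (M.t_fix he) (mem_FY.1 he y hy) h2 (mem_DP.1 hy).2.2.2.symm

theorem comm {g : G} (h : g ∈ CY (Ys C a b t)) : Commute g t := mem_CY.1 h t M.t_mem

theorem uniq {d : G} (hd : E C (Ys C a b t) d) {e e' : Om} (he : e ∈ FY Om (Ys C a b t))
    (he' : e' ∈ FY Om (Ys C a b t)) (h : d • e = e) (h' : d • e' = e') : e = e' := by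
  by_contra hne
  exact hd.2.2 (M.Ys_eq he he' hne ▸ mem_DP.2 ⟨hd.1, h, h', M.comm hd.2.1⟩)

theorem exists_E : ∃ z, E C (Ys C a b t) z ∧ z • a = a := by
  obtain ⟨u, h1, h2, h3, h4⟩ := M.H.exists_move M.ne M.d M.ha M.hb
  exact ⟨u, ⟨h1, M.cy a_mem h1 h2 h3, fun k => h4 (mem_DP.1 k).2.2.1⟩, h2⟩

theorem exists_E' : ∃ z, E C (Ys C a b t) z ∧ z • b = b := by
  obtain ⟨u, h1, h2, h3, h4⟩ := M.H.exists_move M.ne.symm M.d M.hb M.ha
  exact ⟨u, ⟨h1, M.cy b_mem h1 h2 h3, fun k => h4 (mem_DP.1 k).2.1⟩, h2⟩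

theorem odd : Odd (FY Om (Ys C a b t)).card := by
  obtain ⟨z, h1, h2⟩ := M.exists_E
  exact odd_of_one' h1.1.sq (fun x hx => CY_smul h1.2.1 hx) a_mem fun x hx =>
    ⟨fun h => M.uniq h1 hx a_mem h h2, fun h => h ▸ h2⟩

theorem exists_fix {d : G} (hd : d * d = 1) (h : ∀ x ∈ FY Om (Ys C a b t), d • x ∈ FY Om (Ys C a b t)) :
    ∃ e ∈ FY Om (Ys C a b t), d • e = e := odd_fix' M.odd hd h

theorem card_E {e : Om} (he : e ∈ FY Om (Ys C a b t)) :
    (DP C fun d => E C (Ys C a b t) d ∧ d • e = e).card + (Ys C a b t).card = 2 ^ m - 1 := by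
  rw [← M.H.card_Z M.d (M.t_fix he), ← card_union_of_disjoint]
  · congr 1
    ext z
    rw [mem_union, mem_DP, mem_DP (P := fun z => z • e = e ∧ Commute z t)]
    constructor
    · rintro (⟨h1, h2, h3⟩ | h)
      · exact ⟨h1, h3, M.comm h2.2.1⟩
      · exact ⟨(mem_DP.1 h).1, mem_FY.1 he z h, (mem_DP.1 h).2.2.2⟩
    · rintro ⟨h1, h2, h3⟩
      by_cases h : z ∈ Ys C a b t
      · exact Or.inr h
      · exact Or.inl ⟨h1, ⟨h1, M.cy he h1 h2 h3, h⟩, h2⟩
  · exact Finset.disjoint_left.2 fun z hz => (mem_DP.1 hz).2.1.2.2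

/-- The number of involutions in `E` mapping `a` to another point. -/
theorem cnt {s : ℕ} (h : ∀ x ∈ FY Om (Ys C a b t), x ≠ a → (DP C fun d => E C (Ys C a b t) d ∧ d • a = x).card = s) :
    s + (Ys C a b t).card = 2 ^ m - 1 := by
  set Y := Ys C a b t with hY
  set n := 2 ^ m - 1 - Y.card with hn
  have hE : ∀ e ∈ FY Om Y, (DP C fun d => E C Y d ∧ d • e = e).card = n := fun e he => by
    have := M.card_E he
    rw [← hY] at this
    omega
  have h1 : (DP C (E C Y)).card * 1 = (FY Om Y).card * n := by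
    refine Finset.card_mul_eq_card_mul (fun d e => d • e = e) (fun d hd => ?_) fun e he => ?_
    · rw [mem_DP] at hd
      obtain ⟨e, he, h1⟩ := M.exists_fix hd.1.sq fun x hx => CY_smul hd.2.2.1 hx
      refine card_eq_one.2 ⟨e, Finset.eq_singleton_iff_unique_mem.2 ⟨?_, fun x hx => ?_⟩⟩
      · exact (mem_bipartiteAbove _).2 ⟨he, h1⟩
      · rw [mem_bipartiteAbove] at hx
        exact M.uniq hd.2 hx.1 he hx.2 h1
    · rw [← hE e he]
      congr 1
      ext d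
      simp [bipartiteBelow, and_assoc]
  have h2 : (DP C (E C Y)).card = n + ((FY Om Y).card - 1) * s := by
    rw [Finset.card_eq_sum_card_fiberwise (f := fun d : G => d • a) (t := FY Om Y)
      (fun d hd => CY_smul (mem_DP.1 hd).2.2.1 a_mem), ← Finset.add_sum_erase _ _ a_mem]
    have e : ∀ c, (DP C (E C Y)).filter (fun d => d • a = c) = DP C fun d => E C Y d ∧ d • a = c := fun c => by
      ext; simp [and_assoc]
    simp only [e]
    rw [hE a a_mem, Finset.sum_congr rfl fun c hc => h c (mem_erase.1 hc).2 (mem_erase.1 hc).1, sum_const,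
      card_erase_of_mem a_mem, smul_eq_mul]
  have h3 : 1 < (FY Om Y).card := one_lt_card.2 ⟨a, a_mem, b, b_mem, M.ne⟩
  obtain ⟨k, hk⟩ : ∃ k, (FY Om Y).card = k + 1 := ⟨_, (Nat.sub_add_cancel h3.le).symm⟩
  rw [hk] at h1 h2 h3
  rw [Nat.add_sub_cancel] at h2
  have : s = n := Nat.eq_of_mul_eq_mul_left (show 0 < k by omega) (by nlinarith)
  have := M.card_E a_mem
  rw [← hY] at this
  omega

theorem half {z z' : G} (hz : E C (Ys C a b t) z) (hz' : E C (Ys C a b t) z') (h : z • a = a) (h' : z' • b = b) {k : ℕ}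
    (hk : ∀ x ∈ FY Om (Ys C a b t), (z * z') ^ (2 * k) • x = x) : ∀ x ∈ FY Om (Ys C a b t), (z * z') ^ k • x = x := by
  have hc : ∀ j : ℕ, (z * z') ^ j ∈ CY (Ys C a b t) := fun j => pow_mem (mul_mem hz.2.1 hz'.2.1) j
  have hi : ∀ x ∈ FY Om (Ys C a b t), ((z * z') ^ k)⁻¹ • x = (z * z') ^ k • x := fun x hx => by
    rw [inv_smul_eq_iff, ← mul_smul, ← pow_add, ← two_mul, hk x hx]
  have wa : (z * z') ^ k • a = a := M.uniq hz (CY_smul (hc k) a_mem) a_mem
    (by rw [← hi a a_mem, ← mul_smul, dih0 hz.1.sq hz'.1.sq, mul_smul, h, hi a a_mem]) h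
  have wb : (z * z') ^ k • b = b := M.uniq hz' (CY_smul (hc k) b_mem) b_mem
    (by rw [← hi b b_mem, ← mul_smul, dih0' hz.1.sq hz'.1.sq, mul_smul, h', hi b b_mem]) h'
  have h1 : E C (Ys C a b t) ((z * z') ^ k * z) :=
    dih hz.1.sq hz'.1.sq (E C (Ys C a b t)) hz hz' (fun x j hx => hx.conj (hc j)) k
  have h2 : ((z * z') ^ k * z) • a = a := by rw [mul_smul, h, wa]
  by_cases h3 : (z * z') ^ k * z = z
  · intro x _
    rw [mul_eq_right.1 h3, one_smul]
  · have h4 := M.H.mul_D hz.1 h1.1 h h2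
      (M.H.ctrans h1.1 M.d hz.1 h2 M.ha h (M.comm h1.2.1) (M.comm hz.2.1).symm) h3
    rw [mul_assoc, hz.1.sq, mul_one] at h4
    exact fun x hx => mem_FY.1 hx _ (mem_DP.2 ⟨h4, wa, wb, M.comm (hc k)⟩)

theorem SE {z z' : G} (hz : E C (Ys C a b t) z) (hz' : E C (Ys C a b t) z') (h : z • a = a) (h' : z' • b = b) :
    ∃ g ∈ CY (Ys C a b t), ∀ x ∈ FY Om (Ys C a b t), (g * z * g⁻¹) • x = z' • x := by
  have key : ∀ n, 0 < n → (∀ x ∈ FY Om (Ys C a b t), (z * z') ^ n • x = x) →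
      ∃ k, ∀ x ∈ FY Om (Ys C a b t), (z * z') ^ (2 * k + 1) • x = x := by
    intro n
    induction n using Nat.strong_induction_on with
    | _ n ih =>
      intro hn hx
      obtain ⟨k, rfl | rfl⟩ := Nat.even_or_odd' n
      · exact ih k (by omega) (by omega) (M.half hz hz' h h' hx)
      · exact ⟨k, hx⟩
  obtain ⟨k, hk⟩ := key _ (orderOf_pos (z * z')) fun x _ => by rw [pow_orderOf_eq_one, one_smul]
  refine ⟨_, pow_mem (mul_mem hz.2.1 hz'.2.1) k, fun x hx => ?_⟩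
  rw [dih3 hz.1.sq hz'.1.sq, mul_smul, hk _ (CY_smul hz'.2.1 hx)]

theorem SE' {z z' : G} (hz : E C (Ys C a b t) z) (hz' : E C (Ys C a b t) z') (h : z • a = a) (h' : z' • a = a) :
    ∃ g ∈ CY (Ys C a b t), g • a = a ∧ (g * z * g⁻¹) • b = z' • b := by
  obtain ⟨w, hw, hb⟩ := M.exists_E'
  obtain ⟨g, hg, e⟩ := M.SE hz hw h hb
  obtain ⟨g', hg', e'⟩ := M.SE hz' hw h' hb
  have k : ∀ {z g : G}, z • a = a → g ∈ CY (Ys C a b t) → (∀ x ∈ FY Om (Ys C a b t), (g * z * g⁻¹) • x = w • x) →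
      g • a = b := fun {z g} h hg e =>
    M.uniq hw (CY_smul hg a_mem) b_mem (by rw [← e _ (CY_smul hg a_mem), conj_smul_iff, h]) hb
  refine ⟨g'⁻¹ * g, mul_mem (inv_mem hg') hg, by rw [mul_smul, k h hg e, inv_smul_eq_iff, k h' hg' e'], ?_⟩
  have := (e _ (CY_smul hg' b_mem)).trans (e' _ (CY_smul hg' b_mem)).symm
  simp only [mul_smul, inv_smul_smul, mul_inv_rev, inv_inv] at this ⊢
  rw [this, inv_smul_smul]

end Mx

end Cfsg.Agent.L0.T3
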