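import Cfsg.Agent.L0.T3.C

/-! The case of one involution fixing two given points. -/

set_option autoImplicit false
set_option linter.unusedSectionVars false

namespace Cfsg.Agent.L0.T3

open Cfsg.Agent.H5.TA Subgroup MulAction Finset
open scoped Classical

theorem small_fix {α : Type*} [Finite α] (f : α → α) {p : ℕ} (hp : p.Prime) (h : Nat.card α < p) (x : α)
    (hx : f^[p] x = x) : f x = x := by
  have := Fintype.ofFinite α
  rcases (Nat.dvd_prime hp).1 (Function.IsPeriodicPt.minimalPeriod_dvd hx) with h1 | h1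
  · exact Function.minimalPeriod_eq_one_iff_isFixedPt.1 h1
  · have := Function.minimalPeriod_le_card (f := f) (x := x)
    rw [Nat.card_eq_fintype_card] at h
    omega

section act

variable {G X : Type*} [Group G] [MulAction G X] {s : Finset X} {g : G}

theorem iter_val (h : ∀ x ∈ s, g • x ∈ s) (k : ℕ) (x : s) :
    ((fun x : s => (⟨g • x.1, h _ x.2⟩ : s))^[k] x).1 = g ^ k • x.1 := by
  induction k with
  | zero => simp
  | succ k ih => rw [Function.iterate_succ_apply', pow_succ', mul_smul, ← ih]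

theorem small_fix' (h : ∀ x ∈ s, g • x ∈ s) {p : ℕ} (hp : p.Prime) (hs : s.card < p) {x : X} (hx : x ∈ s)
    (e : g ^ p • x = x) : g • x = x :=
  congrArg Subtype.val (small_fix (fun x : s => (⟨g • x.1, h _ x.2⟩ : s)) hp (by simpa using hs) ⟨x, hx⟩
    (Subtype.ext ((iter_val h p _).trans e)))

theorem prime_fix (h : ∀ x ∈ s, g • x ∈ s) {p : ℕ} (hp : p.Prime) (hs : ¬ p ∣ s.card) (e : ∀ x ∈ s, g ^ p • x = x) :
    ∃ x ∈ s, g • x = x := by
  have := Fact.mk hp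
  let σ : Equiv.Perm s := Equiv.ofBijective (fun x : s => (⟨g • x.1, h _ x.2⟩ : s))
    (Finite.injective_iff_bijective.1 fun x y e => Subtype.ext (smul_left_cancel g (congrArg Subtype.val e :)))
  obtain ⟨x, hx⟩ := Equiv.Perm.exists_fixed_point_of_prime (p := p) (n := 1) (σ := σ) (by simpa using hs)
    (Equiv.ext fun x => Subtype.ext (by
      rw [pow_one, Equiv.Perm.coe_pow]
      exact (iter_val h p _).trans (e _ x.2)))
  exact ⟨x, x.2, congrArg Subtype.val hx⟩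

theorem dvd_of_semireg {p : ℕ} (hp : p.Prime) (hs : s.card = p) (h : ∀ k : ℕ, ∀ x ∈ s, g ^ k • x ∈ s)
    (h1 : ∀ k : ℕ, ∀ x ∈ s, g ^ k • x = x → ∀ y ∈ s, g ^ k • y = y) (h2 : ¬ ∀ x ∈ s, g • x = x) (n : ℕ) (hn : 0 < n)
    (e : ∀ x ∈ s, g ^ n • x = x) : p ∣ n := by
  induction n using Nat.strong_induction_on with
  | _ n ih =>
    by_cases n1 : n = 1
    · exact absurd (by simpa [n1] using e) h2
    · obtain ⟨r, hr, k, rfl⟩ := Nat.exists_prime_and_dvd n1
      by_cases hrp : r = p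
      · exact hrp ▸ Dvd.intro _ rfl
      · obtain ⟨x, hx, hk⟩ := prime_fix (h k) hr (hs ▸ fun d => hrp ((Nat.prime_dvd_prime_iff_eq hr hp).1 d))
          fun x hx => by rw [← pow_mul, mul_comm, e x hx]
        have k0 : 0 < k := Nat.pos_of_mul_pos_left hn
        exact (ih k (lt_mul_of_one_lt_left k0 hr.one_lt) k0 (h1 k x hx hk)).mul_left r

theorem mem_zpowers_of_semireg [Finite G] {p : ℕ} (hp : p.Prime) (hX : ¬ p ^ 2 ∣ Nat.card X)
    (h : ∀ (g : G) (x : X), g ^ p = 1 → g • x = x → g = 1) {r u : G} (hr : r ^ p = 1) (hu : u ^ p = 1) (h1 : u ≠ 1)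
    (hc : Commute r u) : r ∈ zpowers u := by
  have := Fact.mk hp
  let A : Subgroup G := centralizer {r, u}
  let H : Subgroup G :=
    { carrier := {g | g ∈ A ∧ g ∈ centralizer (A : Set G) ∧ g ^ p = 1}
      one_mem' := ⟨one_mem _, one_mem _, one_pow _⟩
      mul_mem' := fun {x y} hx hy => ⟨mul_mem hx.1 hy.1, mul_mem hx.2.1 hy.2.1, by
        rw [Commute.mul_pow (hy.2.1 x hx.1), hx.2.2, hy.2.2, one_mul]⟩
      inv_mem' := fun {x} hx => ⟨inv_mem hx.1, inv_mem hx.2.1, by rw [inv_pow, hx.2.2, inv_one]⟩ }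
  have mr : r ∈ H := ⟨by rintro _ (rfl | rfl); exacts [rfl, hc.symm], fun a ha => (ha r (by simp)).symm, hr⟩
  have mu : u ∈ H := ⟨by rintro _ (rfl | rfl); exacts [hc, rfl], fun a ha => (ha u (by simp)).symm, hu⟩
  have hH : IsPGroup p H := fun g => ⟨1, Subtype.ext (by simpa using g.2.2.2)⟩
  obtain ⟨k, hk⟩ := hH.exists_card_eq
  have e := Nat.card_congr (selfEquivOrbitsQuotientProd (G := H) (X := X) fun x => eq_bot_iff.2 fun g hg =>
    Subtype.ext (h g x g.2.2.2 hg))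
  rw [Nat.card_prod, hk] at e
  have k1 : k ≤ 1 := by
    by_contra hk1
    exact hX (e ▸ (pow_dvd_pow p (by omega)).mul_left _)
  have : zpowers u = H := Subgroup.eq_of_le_of_card_ge (zpowers_le.2 mu) (by
    rw [Nat.card_zpowers, orderOf_eq_prime hu h1, hk]
    exact (Nat.pow_le_pow_right hp.pos k1).trans_eq (pow_one p))
  exact this ▸ mr

end act

variable {G Om : Type*} [Group G] [Fintype G] [Fintype Om] [MulAction G Om] {F K : Type} [Field F] [Field K]
  {m i : ℕ} {C : Cfg G Om F K m i}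

theorem mem_two {α : Type*} {s : Finset α} (h : s.card = 2) {a b c : α} (ha : a ∈ s) (hb : b ∈ s) (hc : c ∈ s)
    (hab : a ≠ b) : c = a ∨ c = b := by
  have : ({a, b} : Finset α) = s :=
    Finset.eq_of_subset_of_card_le (by simp [insert_subset_iff, ha, hb]) (by rw [h, card_pair hab])
  simpa [← this] using hc

/-- The data of this case. -/
structure U1 (C : Cfg G Om F K m i) (p : ℕ) : Prop where
  H : Hy C
  u1 : ∀ a b, a ≠ b → (Dab C a b).card = 1
  s2 : ∀ a b, a ≠ b → (Sw C a b).card = 2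
  hm : m = 2
  hp : p.Prime
  hf : ∀ t, D C t → (Fx Om t).card = p
  lt : (2 ^ m) ^ i + 1 < p
  ii : ((2 ^ m) ^ i + 1) * (2 ^ m - 1) = 2 * p + 1

namespace U1

variable {p : ℕ} (U : U1 C p)
include U

theorem odd : Odd p := U.hp.odd_of_ne_two (by have := U.lt; have : 0 < (2 ^ m) ^ i := by positivity
                                              omega)

theorem eq {a b : Om} (h : a ≠ b) {t u : G} (ht : D C t) (hu : D C u) (h1 : t • a = a) (h2 : t • b = b) (h3 : u • a = a)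
    (h4 : u • b = b) : t = u :=
  card_le_one.1 (U.u1 a b h).le _ (mem_DP.2 ⟨ht, h1, h2⟩) _ (mem_DP.2 ⟨hu, h3, h4⟩)

theorem exists_fix {t d : G} (ht : D C t) (hd : d * d = 1) (h : Commute d t) : ∃ x : Om, t • x = x ∧ d • x = x := by
  obtain ⟨x, h1, h2⟩ := odd_fix' (s := Fx Om t) (by rw [U.hf t ht]; exact U.odd) hd
    fun x hx => mem_Fx.2 (comm_smul h (mem_Fx.1 hx))
  exact ⟨x, mem_Fx.1 h1, h2⟩

theorem card_Z {t : G} (ht : D C t) {x : Om} (hx : t • x = x) :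
    (DP C fun z => z • x = x ∧ Commute z t ∧ z ≠ t).card = 2 := by
  have h := U.H.card_Z ht hx
  rw [← card_erase_add_one (a := t) (mem_DP.2 ⟨ht, hx, Commute.refl _⟩)] at h
  have e : (DP C fun z => z • x = x ∧ Commute z t ∧ z ≠ t) = (DP C fun z => z • x = x ∧ Commute z t).erase t := by
    ext z
    simp only [mem_DP, mem_erase]
    tauto
  have : 2 ^ m - 1 = 3 := by rw [U.hm]; rfl
  rw [e]
  omega

theorem two {y z z' : G} (hy : D C y) (hz : D C z) (hz' : D C z') (c : Commute z y) (c' : Commute z' y) (n : z ≠ y)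
    (n' : z' ≠ y) {x : Om} (hx : y • x = x) (e : z' • x = z • x) : z' = z ∨ z' = z * y := by
  obtain ⟨w, h1, h2⟩ := U.exists_fix hy hz.sq c
  have h3 := U.H.mul_D hy hz h1 h2 c n
  have h4 : z ≠ z * y := fun k => hy.ne (left_eq_mul.1 k)
  have h5 : (z * y) • x = z • x := by rw [mul_smul, hx]
  by_cases h : z • x = x
  · exact mem_two (U.card_Z hy hx) (mem_DP.2 ⟨hz, h, c, n⟩)
      (mem_DP.2 ⟨h3, h5.trans h, c.mul_left (Commute.refl _), fun k => hz.ne (mul_eq_right.1 k)⟩)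
      (mem_DP.2 ⟨hz', e.trans h, c', n'⟩) h4
  · exact mem_two (U.s2 x (z • x) (Ne.symm h)) (mem_DP.2 ⟨hz, rfl⟩) (mem_DP.2 ⟨h3, h5⟩) (mem_DP.2 ⟨hz', e⟩) h4

theorem dvd_order {y z z' : G} (hy : D C y) (hz : D C z) (hz' : D C z') (c : Commute z y) (c' : Commute z' y)
    (n : z ≠ y) (n' : z' ≠ y) (h : ∀ x : Om, y • x = x → z • x = x → z' • x ≠ x) : p ∣ orderOf (z * z') := by
  have hc : ∀ k : ℕ, Commute ((z * z') ^ k) y := fun k => (c.mul_left c').pow_left k
  refine dvd_of_semireg (g := z * z') U.hp (U.hf y hy) (fun k x hx => mem_Fx.2 (comm_smul (hc k) (mem_Fx.1 hx)))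
    (fun k x hx e w hw => ?_) (fun k => ?_) _ (orderOf_pos _) fun x _ => by rw [pow_orderOf_eq_one, one_smul]
  · obtain ⟨h1, h2, h3⟩ := dih hz.sq hz'.sq (fun g => D C g ∧ Commute g y ∧ g ≠ y) ⟨hz, c, n⟩ ⟨hz', c', n'⟩
      (fun g j hg => ⟨hg.1.conj _, ((hc j).mul_left hg.2.1).mul_left (hc j).inv_left, fun e => hg.2.2 (by
        rw [mul_inv_eq_iff_eq_mul, ← (hc j).eq] at e
        exact mul_left_cancel e)⟩) k
    rcases U.two hy hz h1 c h2 n h3 (comm_smul c (mem_Fx.1 hx)) (by rw [mul_smul, hz.ss, e]) with h4 | h4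
    · rw [mul_eq_right.1 h4, one_smul]
    · rw [c.eq] at h4
      rw [mul_right_cancel h4, mem_Fx.1 hw]
  · obtain ⟨x, h1, h2⟩ := U.exists_fix hy hz'.sq c'
    exact h x h1 (by rw [← k x (mem_Fx.2 h1), mul_smul, h2, hz.ss, ← h2, ← mul_smul, k x (mem_Fx.2 h1), h2]) h2

theorem semireg (g : G) (x : Om) (hg : g ^ p = 1) (hx : g • x = x) : g = 1 := by
  obtain ⟨R⟩ := C.loc x
  have h1 : g ∈ Cn (C.N x) := R.ker (g := ⟨g, C.nm hx⟩) fun a =>
    small_fix (fun a : Pt (C.N x) F K m i => (⟨g, C.nm hx⟩ : Nm (C.N x)) • a) U.hp (R.card_Pt ▸ U.lt) a (by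
      rw [smul_iterate_apply, show (⟨g, C.nm hx⟩ : Nm (C.N x)) ^ p = 1 from Subtype.ext hg, one_smul])
  refine C.faith g fun y => ?_
  by_cases h : x = y
  · exact h ▸ hx
  obtain ⟨t, ht, h2, h3⟩ := U.H.exists_Dab h
  have hc : Commute g t := (mem_Cn.1 h1 t (U.H.iv ht h2).1).symm
  refine small_fix' (s := (Fx Om t).erase x) (fun w hw => ?_) U.hp ?_ (mem_erase.2 ⟨Ne.symm h, mem_Fx.2 h3⟩)
    (by rw [hg, one_smul])
  · rw [mem_erase, mem_Fx] at hw ⊢
    exact ⟨fun k => hw.1 (smul_left_cancel g (k.trans hx.symm)), comm_smul hc hw.2⟩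
  · rw [card_erase_of_mem (mem_Fx.2 h2), U.hf t ht]
    have := U.hp.pos
    omega

theorem card_E {t : G} (ht : D C t) : (DP C fun z => Commute z t ∧ z ≠ t).card = 2 * p := by
  rw [← U.hf t ht, mul_comm, ← mul_one (card _)]
  refine Finset.card_mul_eq_card_mul (fun d e => d • e = e) (fun d hd => ?_) fun e he => ?_
  · rw [mem_DP] at hd
    obtain ⟨e, h1, h2⟩ := U.exists_fix ht hd.1.sq hd.2.1
    refine card_eq_one.2 ⟨e, Finset.eq_singleton_iff_unique_mem.2 ⟨?_, fun x hx => ?_⟩⟩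
    · exact (mem_bipartiteAbove _).2 ⟨mem_Fx.2 h1, h2⟩
    · rw [mem_bipartiteAbove, mem_Fx] at hx
      by_contra k
      exact hd.2.2 (U.eq k hd.1 ht hx.2 h2 hx.1 h1)
  · rw [← U.card_Z ht (mem_Fx.1 he)]
    congr 1
    ext d
    simp only [mem_bipartiteBelow, mem_DP]
    tauto

theorem card_Om [Nonempty Om] : Fintype.card Om = p * (2 * p - 1) := by
  obtain ⟨a⟩ := ‹Nonempty Om›
  obtain ⟨b, hab⟩ := C.exists_ne a
  obtain ⟨t, ht, -⟩ := U.H.exists_Dab hab
  have h := U.H.cnt1 hab ht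
  rw [U.H.card_Da, U.ii, U.hf t ht, U.u1 a b hab] at h
  have := Fintype.card_pos (α := Om)
  obtain ⟨k, rfl⟩ : ∃ k, p = k + 1 := ⟨_, (Nat.sub_add_cancel U.hp.pos).symm⟩
  rw [show 2 * (k + 1) - 1 = 2 * k + 1 by omega]
  rw [Nat.add_sub_cancel] at h
  have : Fintype.card Om = (2 * (k + 1) + 1) * k + 1 := by omega
  rw [this]
  ring

theorem card_W [Nonempty Om] {t : G} (ht : D C t) :
    (DP C fun d => ∀ x : Om, t • x = x → d • x ≠ x).card + 2 = 2 * p * p := by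
  obtain ⟨a⟩ := ‹Nonempty Om›
  have h1 := U.H.cnt2 a ht
  rw [U.H.card_Da, U.ii, U.hf t ht, U.card_Om, mul_comm _ p, mul_assoc] at h1
  have h2 := Nat.eq_of_mul_eq_mul_left U.hp.pos h1
  have h3 : (DP C fun d => d ≠ t ∧ ∃ x : Om, t • x = x ∧ d • x = x).card * 1 = (Fx Om t).card * (2 * p) := by
    refine Finset.card_mul_eq_card_mul (fun d e => d • e = e) (fun d hd => ?_) fun e he => ?_
    · obtain ⟨hd, hn, e, h1, h2⟩ := mem_DP.1 hd
      refine card_eq_one.2 ⟨e, Finset.eq_singleton_iff_unique_mem.2 ⟨?_, fun x hx => ?_⟩⟩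
      · exact (mem_bipartiteAbove _).2 ⟨mem_Fx.2 h1, h2⟩
      · rw [mem_bipartiteAbove, mem_Fx] at hx
        by_contra k
        exact hn (U.eq k hd ht hx.2 h2 hx.1 h1)
    · have := U.H.card_Da e
      rw [U.ii, ← card_erase_add_one (a := t) (mem_DP.2 ⟨ht, (mem_Fx.1 he : t • e = e)⟩)] at this
      rw [← Nat.add_right_cancel this]
      congr 1
      ext d
      simp only [mem_bipartiteBelow, mem_DP, mem_erase]
      exact ⟨fun k => ⟨k.1.2.1, k.1.1, k.2⟩, fun k => ⟨⟨k.2.1, k.1, e, mem_Fx.1 he, k.2.2⟩, k.2.2⟩⟩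
  have h4 : (DP C fun _ => True) = insert t ((DP C fun d => d ≠ t ∧ ∃ x : Om, t • x = x ∧ d • x = x) ∪
      DP C fun d => ∀ x : Om, t • x = x → d • x ≠ x) := by
    ext d
    simp only [mem_DP, mem_insert, mem_union, and_true]
    constructor
    · intro hd
      by_cases k : d = t
      · exact Or.inl k
      · by_cases k' : ∃ x : Om, t • x = x ∧ d • x = x
        · exact Or.inr (Or.inl ⟨hd, k, k'⟩)
        · exact Or.inr (Or.inr ⟨hd, fun x a b => k' ⟨x, a, b⟩⟩)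
    · rintro (rfl | k | k)
      exacts [ht, k.1, k.1]
  rw [h4, card_insert_of_notMem, card_union_of_disjoint] at h2
  · rw [U.hf t ht] at h3
    obtain ⟨k, rfl⟩ : ∃ k, p = k + 1 := ⟨_, (Nat.sub_add_cancel U.hp.pos).symm⟩
    rw [show 2 * (k + 1) - 1 = 2 * k + 1 by omega] at h2
    nlinarith
  · refine Finset.disjoint_left.2 fun d h h' => ?_
    obtain ⟨x, a, b⟩ := (mem_DP.1 h).2.2
    exact (mem_DP.1 h').2 x a b
  · obtain ⟨x, hx⟩ := ht.exists_fix
    simp only [mem_union, mem_DP, not_or]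
    exact ⟨fun k => k.2.1 rfl, fun k => k.2 x hx hx⟩

theorem exists_two [Nonempty Om] {t : G} (ht : D C t) : ∃ d ∈ DP C fun d => ∀ x : Om, t • x = x → d • x ≠ x,
    1 < ((DP C fun z => Commute z t ∧ z ≠ t).bipartiteBelow (fun y d => Commute d y) d).card := by
  by_contra! h
  have h1 := Finset.card_mul_le_card_mul (m := 2 * p - 2) (fun y d => Commute d y) (fun y hy => ?_) h
  · have h2 := U.card_W ht
    rw [U.card_E ht] at h1
    obtain ⟨k, rfl⟩ : ∃ k, p = k + 2 := ⟨_, (Nat.sub_add_cancel U.hp.two_le).symm⟩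
    rw [show 2 * (k + 2) - 2 = 2 * k + 2 by omega] at h1
    nlinarith
  · obtain ⟨hy, c, n⟩ := mem_DP.1 hy
    obtain ⟨e, h1, h2⟩ := U.exists_fix ht hy.sq c
    rw [← U.card_E hy, ← U.card_Z hy h2]
    refine (le_card_sdiff _ _).trans (card_le_card fun d hd => ?_)
    simp only [mem_sdiff, mem_DP, mem_bipartiteAbove] at hd ⊢
    refine ⟨⟨hd.1.1, fun x a b => hd.2 ⟨hd.1.1, ?_, hd.1.2⟩⟩, hd.1.2.1⟩
    by_cases k : y • x = x
    · by_cases k' : x = e
      · exact k' ▸ b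
      · exact absurd (U.eq k' hy ht k h2 a h1) n
    · rw [U.eq (Ne.symm k) hd.1.1 ht b (comm_smul hd.1.2.1.symm b) a (comm_smul c a), h1]

theorem false [Nonempty Om] : False := by
  obtain ⟨t, ht⟩ := C.exists_iv (Classical.arbitrary Om)
  replace ht := D.of ht
  obtain ⟨d, hd, h⟩ := U.exists_two ht
  obtain ⟨y, hy, y', hy', n⟩ := one_lt_card.1 h
  simp only [mem_DP, mem_bipartiteBelow] at hd hy hy'
  have ntd : ¬ Commute d t := fun k =>
    let ⟨x, a, b⟩ := U.exists_fix ht hd.1.sq k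
    hd.2 x a b
  have h1 : p ∣ orderOf (y * y') := U.dvd_order ht hy.1.1 hy'.1.1 hy.1.2.1 hy'.1.2.1 hy.1.2.2 hy'.1.2.2 fun x a b c => by
    rcases U.two ht hy.1.1 hy'.1.1 hy.1.2.1 hy'.1.2.1 hy.1.2.2 hy'.1.2.2 a (c.trans b.symm) with k | k
    · exact n k.symm
    · exact ntd (by rw [eq_inv_mul_iff_mul_eq.2 k.symm]; exact hy.2.inv_right.mul_right hy'.2)
  have h2 : p ∣ orderOf (t * d) := U.dvd_order hy.1.1 ht hd.1 hy.1.2.1.symm hy.2 hy.1.2.2.symm
    (fun k => ntd (k ▸ hy.1.2.1)) fun x _ b => hd.2 x b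
  have o1 := orderOf_pow_orderOf_div (orderOf_pos _).ne' h1
  have o2 := orderOf_pow_orderOf_div (orderOf_pos _).ne' h2
  have c1 : Commute t (y * y') := hy.1.2.1.symm.mul_right hy'.1.2.1.symm
  have c2 : Commute (t * d) (y * y') := c1.mul_left (hy.2.mul_right hy'.2)
  have hv : ¬ p ^ 2 ∣ Nat.card Om := by
    rw [Nat.card_eq_fintype_card, U.card_Om, pow_two, Nat.mul_dvd_mul_iff_left U.hp.pos]
    intro k
    have : p ∣ 2 * p - (2 * p - 1) := Nat.dvd_sub (Dvd.intro_left _ rfl) k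
    have := U.hp.two_le
    rw [show 2 * p - (2 * p - 1) = 1 by omega] at *
    exact U.hp.one_lt.ne' (Nat.dvd_one.1 ‹_›)
  obtain ⟨j, hj⟩ := mem_zpowers_of_semireg U.hp hv U.semireg (orderOf_dvd_iff_pow_eq_one.1 o2.dvd)
    (orderOf_dvd_iff_pow_eq_one.1 o1.dvd) (fun k => U.hp.one_lt.ne' (by rw [← o1, k, orderOf_one])) (c2.pow_pow _ _)
  have c3 : Commute t ((t * d) ^ (orderOf (t * d) / p)) := hj ▸ (c1.pow_right _).zpow_right j
  have e := dih0 ht.sq hd.1.sq (orderOf (t * d) / p)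
  rw [← c3.eq, mul_right_inj, inv_eq_iff_mul_eq_one, ← pow_two, ← orderOf_dvd_iff_pow_eq_one, o2] at e
  exact U.odd.not_two_dvd_nat (((Nat.prime_dvd_prime_iff_eq U.hp Nat.prime_two).1 e).symm.dvd)

end U1

end Cfsg.Agent.L0.T3
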